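import Cfsg.Agent.Lib.Mathieu.Order7920.Five
import Cfsg.Agent.Lib.OrderDegrees.Coclique
import Cfsg.Agent.Lib.Involutions.ThompsonTransfer
import Cfsg.Agent.Lib.Involutions.BrauerSuzuki
import Cfsg.Agent.Lib.Cores.PCore

/-!
Groups of order 7920 with disconnected prime graph are simple.
-/

set_option autoImplicit false

namespace CfsgLib.Mathieu.Order7920

open Subgroup MulAction
open scoped Classical

universe u

local instance fact_prime_two_pg : Fact (Nat.Prime 2) := ⟨by norm_num⟩
local instance fact_prime_three_pg : Fact (Nat.Prime 3) := ⟨by norm_num⟩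
local instance fact_prime_five_pg : Fact (Nat.Prime 5) := ⟨by norm_num⟩
local instance fact_prime_eleven_pg : Fact (Nat.Prime 11) := ⟨by norm_num⟩

/-- An edge of the prime graph. -/
abbrev HasEdge (K : Type u) [Group K] (p q : ℕ) : Prop := ∃ x : K, orderOf x = p * q

variable {K : Type u} [Group K]

theorem hasEdge_comm {p q : ℕ} (h : HasEdge K p q) : HasEdge K q p := by
  obtain ⟨x, hx⟩ := h
  exact ⟨x, hx.trans (mul_comm p q)⟩

theorem hasEdge_coe {H : Subgroup K} {p q : ℕ} (h : HasEdge H p q) : HasEdge K p q := by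
  obtain ⟨x, hx⟩ := h
  exact ⟨x, (orderOf_coe x).trans hx⟩

variable [Finite K]

theorem hasEdge_of_dvd_centralizer {p q : ℕ} [hp : Fact p.Prime] [hq : Fact q.Prime] (hpq : p ≠ q)
    {H : Subgroup K} (hH : p ∣ Nat.card H) {x : K} (hx : q ∣ orderOf x)
    (hcomm : ∀ h ∈ H, Commute h x) : HasEdge K p q := by
  obtain ⟨a, ha⟩ := exists_prime_orderOf_dvd_card' (G := H) p hH
  exact CfsgLib.OrderDegrees.exists_orderOf_eq_mul_of_commute hp.out hq.out hpq (hcomm a a.2)
    (dvd_of_eq (by rw [orderOf_coe, ha])) hx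

/-- A normal subgroup of order prime to `p` gives an edge by the Frattini argument. -/
theorem hasEdge_of_normal {p q : ℕ} [hp : Fact p.Prime] [hq : Fact q.Prime] (H : Subgroup K)
    [H.Normal] (hpH : ¬ p ∣ Nat.card H) (hpK : p ∣ Nat.card K) (hqH : q ∣ Nat.card H)
    (hmod : ∀ k, 0 < k → q ^ k ∣ Nat.card H → ¬ q ^ (k + 1) ∣ Nat.card H → ¬ q ^ k ≡ 1 [MOD p]) : HasEdge K p q := by
  obtain ⟨Q⟩ : Nonempty (Sylow q H) := inferInstance
  set Q' : Subgroup K := (Q : Subgroup H).map H.subtype with hQ'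
  obtain ⟨k, hk⟩ := IsPGroup.iff_card.1 Q.isPGroup'
  have hk0 : 0 < k := by
    rcases Nat.eq_zero_or_pos k with rfl | h
    · have := Q.dvd_card_of_dvd_card hqH
      rw [hk, pow_zero] at this
      exact absurd this hq.out.not_dvd_one
    · exact h
  have hcard : Nat.card Q' = q ^ k := by rw [hQ', card_map_of_injective H.subtype_injective, hk]
  set N := normalizer (Q' : Set K) with hN
  have htop : N ⊔ H = ⊤ := Sylow.normalizer_sup_eq_top Q
  have hsurj : Function.Surjective ((QuotientGroup.mk' H).comp N.subtype) := by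
    intro c
    refine QuotientGroup.induction_on c fun g => ?_
    obtain ⟨n, hn, h, hh, rfl⟩ := mem_sup_of_normal_right.1 (htop ▸ mem_top g : g ∈ N ⊔ H)
    refine ⟨⟨n, hn⟩, ?_⟩
    show (n : K ⧸ H) = ((n * h : K) : K ⧸ H)
    exact QuotientGroup.eq.2 (by rw [inv_mul_cancel_left]; exact hh)
  have hpN : p ∣ Nat.card N := by
    refine Dvd.dvd.trans ?_ (card_dvd_of_surjective _ hsurj)
    have h := hpK
    rw [card_eq_card_quotient_mul_card_subgroup H] at h
    exact (hp.out.dvd_mul.1 h).resolve_right hpH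
  obtain ⟨y, hy⟩ := exists_prime_orderOf_dvd_card' (G := N) p hpN
  have hyp : IsPGroup p (zpowers (y : K)) :=
    IsPGroup.of_card (n := 1) (by rw [pow_one, Nat.card_zpowers, orderOf_coe, hy])
  have hcount := card_modEq_conj hyp (Q' : Set K) (fun l hl s hs => by
    have : zpowers (y : K) ≤ N := zpowers_le.2 y.2
    exact (mem_normalizer_iff.1 (this hl) s).1 hs)
  have hfix : 1 < Nat.card {s : K | s ∈ (Q' : Set K) ∧ ∀ l ∈ zpowers (y : K), l * s = s * l} := by
    by_contra hle
    have hpos : 0 < Nat.card {s : K | s ∈ (Q' : Set K) ∧ ∀ l ∈ zpowers (y : K), l * s = s * l} := by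
      refine Nat.card_pos_iff.2 ⟨⟨⟨1, Q'.one_mem, fun l _ => by simp⟩⟩, inferInstance⟩
    have h1 : Nat.card {s : K | s ∈ (Q' : Set K) ∧ ∀ l ∈ zpowers (y : K), l * s = s * l} = 1 := by
      omega
    rw [h1] at hcount
    refine hmod k hk0 (hk ▸ (Q : Subgroup H).card_subgroup_dvd_card) (fun hd => ?_) ?_
    · apply Q.not_dvd_index
      rw [← (Q : Subgroup H).card_mul_index, hk, pow_succ] at hd
      exact (Nat.mul_dvd_mul_iff_left (pow_pos hq.out.pos k)).1 hd
    rwa [show Nat.card (Q' : Set K) = q ^ k from hcard] at hcount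
  obtain ⟨⟨s, hsQ, hs⟩, hs1⟩ : ∃ s : {s : K | s ∈ (Q' : Set K) ∧ ∀ l ∈ zpowers (y : K), l * s = s * l},
      (s : K) ≠ 1 := by
    have := Finite.one_lt_card_iff_nontrivial.1 hfix
    obtain ⟨a, b, hab⟩ := exists_pair_ne {s : K | s ∈ (Q' : Set K) ∧ ∀ l ∈ zpowers (y : K), l * s = s * l}
    by_cases ha : (a : K) = 1
    · exact ⟨b, fun hb => hab (Subtype.ext (ha.trans hb.symm))⟩
    · exact ⟨a, ha⟩
  have hpq : p ≠ q := fun e => hpH (e ▸ hqH)
  refine CfsgLib.OrderDegrees.exists_orderOf_eq_mul_of_commute hp.out hq.out hpq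
    (hs y (mem_zpowers _)) (dvd_of_eq (by rw [orderOf_coe, hy])) ?_
  obtain ⟨j, _, hj⟩ := (Nat.dvd_prime_pow hq.out).1
    ((Subgroup.orderOf_dvd_natCard _ hsQ).trans (dvd_of_eq hcard))
  rcases Nat.eq_zero_or_pos j with rfl | h
  · exact absurd (orderOf_eq_one_iff.1 (by simpa using hj)) hs1
  · rw [hj]
    exact dvd_pow_self q h.ne'

theorem centralizer_card_mul_le (z : K) (D : Subgroup K) [hD : D.Normal] (hz : z ∈ D) :
    ∃ c ≤ Nat.card D, Nat.card K = Nat.card (centralizer ({z} : Set K)) * c := by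
  refine ⟨conjCount ⊤ z, ?_, ?_⟩
  · refine Nat.card_le_card_of_injective
      (fun h => (⟨h.1, ?_⟩ : D)) fun a b e => Subtype.ext (by simpa using e)
    obtain ⟨c, hc⟩ := isConj_iff.1 h.2.2
    rw [← hc]
    exact hD.conj_mem z hz c
  · have := fix_mul_card (⊤ : Subgroup K) z
    have h1 : fixCount (K ⧸ (⊤ : Subgroup K)) z = 1 := by
      have := QuotientGroup.subsingleton_quotient_top (G := K)
      rw [fixCount, Nat.card_eq_one_iff_unique]
      exact ⟨⟨fun a b => Subtype.ext (Subsingleton.elim _ _)⟩,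
        ⟨⟨((1 : K) : K ⧸ (⊤ : Subgroup K)), Subsingleton.elim _ _⟩⟩⟩
    rwa [h1, one_mul, card_top] at this

/-- A normal subgroup of order two, four or eight joins two to three and five. -/
theorem hasEdge_two_of_normal (D : Subgroup K) [D.Normal] {k : ℕ} (hk : 0 < k) (hk3 : k ≤ 3)
    (hD : Nat.card D = 2 ^ k) (h9 : 9 ∣ Nat.card K) (h5 : 5 ∣ Nat.card K) :
    HasEdge K 2 3 ∧ HasEdge K 2 5 := by
  have h2 : 2 ∣ Nat.card D := hD ▸ dvd_pow_self 2 hk.ne'
  have hj : ∀ j, 0 < j → 2 ^ j ∣ Nat.card D → j ≤ k := fun j _ h =>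
    (Nat.pow_dvd_pow_iff_le_right (by norm_num)).1 (hD ▸ h)
  have hnd : ∀ p : ℕ, p.Prime → p ≠ 2 → ¬ p ∣ Nat.card D := fun p hp hp2 h =>
    hp2 ((Nat.prime_dvd_prime_iff_eq hp Nat.prime_two).1 (hp.dvd_of_dvd_pow (hD ▸ h)))
  refine ⟨?_, hasEdge_comm (hasEdge_of_normal D (hnd 5 (by norm_num) (by norm_num)) h5 h2 ?_)⟩
  · rcases Nat.lt_or_ge 1 k with hk1 | hk1
    · rcases Nat.lt_or_ge k 3 with hk2 | hk2
      · obtain rfl : k = 2 := by omega
        obtain ⟨z, hz⟩ := exists_prime_orderOf_dvd_card' (G := D) 2 h2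
        obtain ⟨c, hc, he⟩ := centralizer_card_mul_le (z : K) D z.2
        rw [hD] at hc
        have h3 : 3 ∣ Nat.card (centralizer ({(z : K)} : Set K)) := by
          rw [he] at h9
          norm_num at hc
          have hc0 : c ≠ 0 := by rintro rfl; simp at he; exact absurd he Nat.card_pos.ne'
          interval_cases c <;> omega
        exact hasEdge_comm (hasEdge_of_dvd_centralizer (q := 2) (by norm_num) h3
          (dvd_of_eq (by rw [orderOf_coe, hz])) fun h hh => mem_centralizer_singleton_iff.1 hh)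
      · refine hasEdge_comm (hasEdge_of_normal D (hnd 3 (by norm_num) (by norm_num))
          (dvd_trans (by norm_num) h9) h2 fun j hj0 hjd hjn => ?_)
        obtain rfl : k = 3 := by omega
        have := hj j hj0 hjd
        interval_cases j
        · decide
        · exact absurd (hD ▸ dvd_refl _) hjn
        · decide
    · refine hasEdge_comm (hasEdge_of_normal D (hnd 3 (by norm_num) (by norm_num))
        (dvd_trans (by norm_num) h9) h2 fun j hj0 hjd _ => ?_)
      have := hj j hj0 hjd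
      obtain rfl : j = 1 := by omega
      decide
  · intro j hj0 hjd _
    have := (hj j hj0 hjd).trans hk3
    interval_cases j <;> decide

theorem hasEdge_three_eleven (H : Subgroup K) [H.Normal] (h11 : ¬ 11 ∣ Nat.card H)
    (hK : 11 ∣ Nat.card K) (h3 : 3 ∣ Nat.card H) (h27 : ¬ 27 ∣ Nat.card K) : HasEdge K 3 11 := by
  refine hasEdge_comm (hasEdge_of_normal H h11 hK h3 fun k hk hd _ => ?_)
  have hk2 : k ≤ 2 := by
    by_contra hlt
    exact h27 ((pow_dvd_pow 3 (by omega : 3 ≤ k)).trans (hd.trans H.card_subgroup_dvd_card))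
  interval_cases k <;> decide

theorem hasEdge_five_eleven (H : Subgroup K) [H.Normal] (h11 : ¬ 11 ∣ Nat.card H)
    (hK : 11 ∣ Nat.card K) (h5 : 5 ∣ Nat.card H) (h25 : ¬ 25 ∣ Nat.card K) : HasEdge K 5 11 := by
  refine hasEdge_comm (hasEdge_of_normal H h11 hK h5 fun k hk hd _ => ?_)
  have hk2 : k ≤ 1 := by
    by_contra hlt
    exact h25 ((pow_dvd_pow 5 (by omega : 2 ≤ k)).trans (hd.trans H.card_subgroup_dvd_card))
  interval_cases k; decide

theorem card_sylow_eleven_pg (h11 : 11 ∣ Nat.card K) (h121 : ¬ 121 ∣ Nat.card K) (P : Sylow 11 K) :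
    Nat.card (P : Subgroup K) = 11 := by
  obtain ⟨m, hm⟩ := h11
  simpa using CfsgLib.SmallGroups.card_sylow_eq (p := 11) (a := 1) (m := m)
    (by rw [hm, pow_one]) (fun hd => h121 (hm ▸ Nat.mul_dvd_mul_left 11 hd)) P

theorem card_eq_mul_normalizer (P : Sylow 11 K) :
    Nat.card K = Nat.card (Sylow 11 K) * Nat.card (normalizer ((P : Subgroup K) : Set K)) := by
  rw [P.card_eq_index_normalizer]
  exact (index_mul_card _).symm

/-- Burnside's transfer theorem at the prime eleven. -/
theorem hasEdge_three_eleven_of_burnside (P : Sylow 11 K)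
    (hN : normalizer ((P : Subgroup K) : Set K) ≤ centralizer ((P : Subgroup K) : Set K))
    (h3 : 3 ∣ Nat.card K) (h11 : 11 ∣ Nat.card K) (h27 : ¬ 27 ∣ Nat.card K) : HasEdge K 3 11 := by
  have hc := (MonoidHom.ker_transferSylow_isComplement' P hN).card_mul_card
  refine hasEdge_three_eleven (MonoidHom.transferSylow P hN).ker
    (MonoidHom.not_dvd_card_ker_transferSylow P hN) h11 ?_ h27
  rw [← hc] at h3
  refine ((by norm_num : Nat.Prime 3).dvd_mul.1 h3).resolve_right fun hd => ?_
  obtain ⟨k, hk⟩ := IsPGroup.iff_card.1 P.isPGroup'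
  rw [hk] at hd
  exact absurd ((by norm_num : Nat.Prime 3).dvd_of_dvd_pow hd) (by norm_num)

/-- The kernel of the action of a normaliser on a group of order eleven. -/
theorem exists_kernel (R : Subgroup K) (hR : Nat.card R = 11) :
    ∃ H : Subgroup (normalizer (R : Set K)), H.Normal ∧
      Nat.card (normalizer (R : Set K)) ∣ 10 * Nat.card H ∧
      (∀ h ∈ H, ∀ r ∈ R, Commute (h : K) r) ∧
      (H = ⊤ → normalizer (R : Set K) ≤ centralizer (R : Set K)) := by
  refine ⟨R.normalizerMonoidHom.ker, inferInstance, ?_, fun h hh r hr => ?_, fun htop n hn => ?_⟩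
  · have : IsCyclic R := isCyclic_of_prime_card hR
    have h1 : R.normalizerMonoidHom.ker.index ∣ 10 := by
      rw [index_ker]
      refine (card_subgroup_dvd_card _).trans (dvd_of_eq ?_)
      rw [IsCyclic.card_mulAut, hR]
      decide
    rw [← R.normalizerMonoidHom.ker.index_mul_card]
    exact Nat.mul_dvd_mul_right h1 _
  · rw [normalizerMonoidHom_ker, mem_subgroupOf, mem_centralizer_iff] at hh
    exact (hh r hr).symm
  · have : (⟨n, hn⟩ : normalizer (R : Set K)) ∈ R.normalizerMonoidHom.ker := htop ▸ mem_top _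
    rwa [normalizerMonoidHom_ker, mem_subgroupOf] at this

theorem hasEdge_three_eleven_of_coprime (P : Sylow 11 K) (hP : Nat.card (P : Subgroup K) = 11)
    (hN : (Nat.card (normalizer ((P : Subgroup K) : Set K))).Coprime 10)
    (h3 : 3 ∣ Nat.card K) (h11 : 11 ∣ Nat.card K) (h27 : ¬ 27 ∣ Nat.card K) : HasEdge K 3 11 := by
  obtain ⟨H, -, hd, -, htop⟩ := exists_kernel _ hP
  refine hasEdge_three_eleven_of_burnside P (htop ?_) h3 h11 h27
  exact eq_top_of_card_eq _ (Nat.dvd_antisymm H.card_subgroup_dvd_card (hN.dvd_of_dvd_mul_left hd))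

omit [Finite K] in
theorem mem_of_orderOf_eleven (L : Subgroup K) [L.Normal] (h : ¬ 11 ∣ L.index) {g : K}
    (hg : orderOf g = 11) : g ∈ L := by
  rw [← QuotientGroup.eq_one_iff (N := L), ← orderOf_eq_one_iff, ← Nat.dvd_one]
  have h1 : orderOf (g : K ⧸ L) ∣ 11 := hg ▸ orderOf_map_dvd (QuotientGroup.mk' L) g
  have h2 : orderOf (g : K ⧸ L) ∣ L.index := orderOf_dvd_natCard (g : K ⧸ L)
  rcases (Nat.dvd_prime (by norm_num)).1 h1 with e | e
  · rw [e]
  · exact absurd (e ▸ h2) h

theorem card_sylow_eleven_of_forall_mem (L : Subgroup K) (h11 : 11 ∣ Nat.card K)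
    (h121 : ¬ 121 ∣ Nat.card K) (h : ∀ g : K, orderOf g = 11 → g ∈ L) :
    Nat.card (Sylow 11 L) = Nat.card (Sylow 11 K) := by
  obtain ⟨m, hm⟩ := h11
  have hm' : ¬ 11 ∣ m := fun hd => h121 (hm ▸ Nat.mul_dvd_mul_left 11 hd)
  obtain ⟨g, hg⟩ := exists_prime_orderOf_dvd_card' (G := K) 11 (hm ▸ dvd_mul_right 11 m)
  obtain ⟨l, hl⟩ : 11 ∣ Nat.card L := hg ▸ L.orderOf_dvd_natCard (h g hg)
  have hl' : ¬ 11 ∣ l := fun hd =>
    h121 ((hl ▸ Nat.mul_dvd_mul_left 11 hd : 11 * 11 ∣ Nat.card L).trans L.card_subgroup_dvd_card)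
  have h1 := card_orderOf_eq (p := 11) hm hm'
  have h2 := card_orderOf_eq (p := 11) hl hl'
  have h3 : Nat.card {g : L // orderOf g = 11} = Nat.card {g : K // orderOf g = 11} :=
    Nat.card_congr
      { toFun := fun g => ⟨g.1, (orderOf_coe g.1).trans g.2⟩
        invFun := fun g => ⟨⟨g.1, h g.1 g.2⟩, by rw [← orderOf_coe]; exact g.2⟩
        left_inv := fun g => rfl
        right_inv := fun g => rfl }
  omega

theorem sign_toPerm_eq_one (hno : ¬ ∃ L : Subgroup K, L.index = 2) {X : Type*} [Fintype X]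
    [MulAction K X] (g : K) : Equiv.Perm.sign (MulAction.toPerm g : Equiv.Perm X) = 1 := by
  by_contra hne
  exact hno (CfsgLib.Involutions.exists_index_two_of_hom
    (Equiv.Perm.sign.comp (MulAction.toPermHom K X)) (x := g) hne)

theorem four_dvd_card_sub_fixCount (hno : ¬ ∃ L : Subgroup K, L.index = 2) {X : Type*} [Finite X]
    [MulAction K X] {g : K} (hg : g ^ 2 = 1) :
    4 ∣ Nat.card X - fixCount X g ∧ fixCount X g ≤ Nat.card X := by
  have := Fintype.ofFinite X
  have hσ : (MulAction.toPerm g : Equiv.Perm X) ^ 2 = 1 := by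
    refine Equiv.ext fun q => ?_
    show g • g • q = q
    rw [← mul_smul, ← sq, hg, one_smul]
  have hf : fixCount X g =
      Fintype.card (Function.fixedPoints (MulAction.toPerm g : Equiv.Perm X)) := by
    rw [← Nat.card_eq_fintype_card]
    rfl
  have h1 := Equiv.Perm.sign_of_pow_two_eq_one hσ
  rw [sign_toPerm_eq_one hno, ← hf, ← Nat.card_eq_fintype_card] at h1
  have h2 := Equiv.Perm.two_dvd_card_support hσ
  have h3 : fixCount X g = Nat.card X - (MulAction.toPerm g : Equiv.Perm X).support.card := by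
    rw [hf, Equiv.Perm.card_fixedPoints, Equiv.Perm.sum_cycleType, Nat.card_eq_fintype_card]
  have h4 := Finset.card_le_univ (MulAction.toPerm g : Equiv.Perm X).support
  rw [← Nat.card_eq_fintype_card] at h4
  have h5 : Even ((Nat.card X - fixCount X g) / 2) := by
    by_contra h
    rw [(Nat.not_even_iff_odd.1 h).neg_one_pow] at h1
    exact absurd h1 (by decide)
  refine ⟨?_, by omega⟩
  obtain ⟨k, hk⟩ := h5
  omega

theorem fixCount_modEq_one (P : Sylow 11 K) (hP : Nat.card (P : Subgroup K) = 11)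
    (hN : ¬ 121 ∣ Nat.card (normalizer ((P : Subgroup K) : Set K))) {z : K}
    (hzN : z ∈ normalizer ((P : Subgroup K) : Set K))
    (hzP : ∀ r ∈ (P : Subgroup K), Commute z r) :
    fixCount (K ⧸ normalizer ((P : Subgroup K) : Set K)) z ≡ 1 [MOD 11] := by
  set Hn := normalizer ((P : Subgroup K) : Set K) with hHn
  let _ : MulAction (P : Subgroup K) {q : K ⧸ Hn // z • q = q} :=
    { smul := fun r q => ⟨(r : K) • q.1, by rw [← mul_smul, (hzP r r.2).eq, mul_smul, q.2]⟩
      one_smul := fun q => Subtype.ext (one_smul K q.1)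
      mul_smul := fun r r' q => Subtype.ext (mul_smul (r : K) (r' : K) q.1) }
  refine (P.isPGroup'.card_modEq_card_fixedPoints {q : K ⧸ Hn // z • q = q}).trans ?_
  rw [show Nat.card (fixedPoints (P : Subgroup K) {q : K ⧸ Hn // z • q = q}) = 1 from ?_]
  have hbase : ∀ n ∈ Hn, n • ((1 : K) : K ⧸ Hn) = ((1 : K) : K ⧸ Hn) := fun n hn => by
    rw [mk_fixed_iff]; simpa using hn
  rw [Nat.card_eq_one_iff_unique]
  refine ⟨⟨fun a b => ?_⟩, ⟨⟨⟨((1 : K) : K ⧸ Hn), hbase z hzN⟩,
    fun r => Subtype.ext (hbase r (le_normalizer r.2))⟩⟩⟩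
  suffices h : ∀ a : fixedPoints (P : Subgroup K) {q : K ⧸ Hn // z • q = q},
      a.1.1 = ((1 : K) : K ⧸ Hn) from Subtype.ext (Subtype.ext ((h a).trans (h b).symm))
  rintro ⟨⟨q, hq⟩, hfix⟩
  induction q using QuotientGroup.induction_on with
  | _ g =>
    have hmem : ∀ r ∈ (P : Subgroup K), g⁻¹ * r * g ∈ (P : Subgroup K) := by
      intro r hr
      by_cases hr1 : r = 1
      · simp [hr1]
      have hin : g⁻¹ * r * g ∈ Hn :=
        (mk_fixed_iff Hn r g).1 (congrArg Subtype.val (hfix ⟨r, hr⟩))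
      have : ((P : Subgroup K).subgroupOf Hn).Normal := normal_in_normalizer
      have hcard : Nat.card ((P : Subgroup K).subgroupOf Hn) = 11 := by
        rw [Nat.card_congr (subgroupOfEquivOfLe (le_normalizer (H := (P : Subgroup K)))).toEquiv, hP]
      refine mem_subgroupOf.1 (mem_of_orderOf_eleven ((P : Subgroup K).subgroupOf Hn) (fun hd => hN ?_)
        (g := ⟨_, hin⟩) ?_)
      · rw [← ((P : Subgroup K).subgroupOf Hn).index_mul_card, hcard]
        exact Nat.mul_dvd_mul_right hd 11
      · rw [← orderOf_coe]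
        have hc : g⁻¹ * r * g = g⁻¹ * r * g⁻¹⁻¹ := by rw [inv_inv]
        show orderOf (g⁻¹ * r * g) = 11
        rw [hc, ← MulAut.conj_apply, MulEquiv.orderOf_eq]
        rcases (Nat.dvd_prime (by norm_num)).1 ((Subgroup.orderOf_dvd_natCard _ hr).trans
          (dvd_of_eq hP)) with e | e
        · exact absurd (orderOf_eq_one_iff.1 e) hr1
        · exact e
    refine QuotientGroup.eq.2 ?_
    rw [mul_one, mem_normalizer_iff]
    intro h
    refine ⟨fun hh => by simpa using hmem h hh, fun hh => ?_⟩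
    obtain ⟨⟨x, hx⟩, he⟩ := (Finite.injective_iff_surjective (f := fun x : (P : Subgroup K) =>
      (⟨g⁻¹ * x * g, hmem x x.2⟩ : (P : Subgroup K)))).1
      (fun a b e => Subtype.ext (by simpa using congrArg Subtype.val e)) ⟨_, hh⟩
    have he' : g⁻¹ * x * g = g⁻¹ * h * g := by simpa using congrArg Subtype.val he
    have : x = h := mul_left_cancel (mul_right_cancel he')
    exact this ▸ hx

theorem orderOf_pow_half {s : K} (h : 2 ∣ orderOf s) : orderOf (s ^ (orderOf s / 2)) = 2 :=
  orderOf_pow_orderOf_div (orderOf_pos s).ne' h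

/-- A Sylow 2-subgroup `S` of the normaliser and an involution centralised by it. -/
theorem exists_central_involution_graph {Hn R : Subgroup K} (hRN : R ≤ Hn) {i : ℕ}
    (hN : Nat.card Hn = 11 * 2 ^ i) (hR : Nat.card R = 11)
    (H : Subgroup Hn) [H.Normal]
    (hH2 : 2 ∣ Nat.card H) (hHc : ∀ h ∈ H, ∀ r ∈ R, Commute (h : K) r) :
    ∃ z : K, orderOf z = 2 ∧ z ∈ Hn ∧ Hn ≤ centralizer ({z} : Set K) ∧
      (∀ r ∈ R, Commute z r) ∧
      ∃ S : Subgroup K, Nat.card S = 2 ^ i ∧ S ≤ Hn ∧ z ∈ S := by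
  obtain ⟨h, hh⟩ := exists_prime_orderOf_dvd_card' (G := H) 2 hH2
  have hho : orderOf (h : Hn) = 2 := by rw [orderOf_coe, hh]
  obtain ⟨S, hS⟩ := (IsPGroup.of_card (p := 2) (n := 1)
    (by rw [pow_one, Nat.card_zpowers, hho]) : IsPGroup 2 (zpowers (h : Hn))).exists_le_sylow
  have hSc : Nat.card (S : Subgroup Hn) = 2 ^ i :=
    CfsgLib.SmallGroups.card_sylow_eq (p := 2) (a := i) (m := 11) (by rw [hN, mul_comm]) (by norm_num) S
  let T : Subgroup Hn := (S : Subgroup Hn) ⊓ H
  have hhT : (h : Hn) ∈ T := ⟨hS (mem_zpowers _), h.2⟩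
  have hT2 : 2 ∣ Nat.card T := hho ▸ T.orderOf_dvd_natCard hhT
  have hcount := card_modEq_conj S.isPGroup' (T : Set Hn) (fun k hk s hs =>
    ⟨(S : Subgroup Hn).mul_mem ((S : Subgroup Hn).mul_mem hk hs.1) ((S : Subgroup Hn).inv_mem hk), ‹H.Normal›.conj_mem s hs.2 k⟩)
  obtain ⟨⟨s, hsT, hscomm⟩, hs1⟩ :
      ∃ s : {s : Hn | s ∈ (T : Set Hn) ∧ ∀ k ∈ (S : Subgroup Hn), k * s = s * k}, (s : Hn) ≠ 1 := by
    by_contra hall
    push Not at hall
    have h1 : Nat.card {s : Hn | s ∈ (T : Set Hn) ∧ ∀ k ∈ (S : Subgroup Hn), k * s = s * k} = 1 :=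
      Nat.card_eq_one_iff_unique.2 ⟨⟨fun a b => Subtype.ext ((hall a).trans (hall b).symm)⟩,
        ⟨⟨1, T.one_mem, fun k _ => by simp⟩⟩⟩
    rw [h1] at hcount
    have h0 : Nat.card T ≡ 0 [MOD 2] := Nat.modEq_zero_iff_dvd.2 hT2
    exact absurd (hcount.symm.trans h0) (by decide)
  have hs2 : 2 ∣ orderOf s := by
    obtain ⟨j, -, hj⟩ := (Nat.dvd_prime_pow Nat.prime_two).1
      ((Subgroup.orderOf_dvd_natCard _ hsT.1).trans (dvd_of_eq hSc))
    rcases Nat.eq_zero_or_pos j with rfl | hj0
    · exact absurd (orderOf_eq_one_iff.1 (by simpa using hj)) hs1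
    · exact hj ▸ dvd_pow_self 2 hj0.ne'
  set w := s ^ (orderOf s / 2) with hw
  have hwo : orderOf w = 2 := orderOf_pow_half hs2
  have hwT : w ∈ T := pow_mem hsT _
  have hwS : ∀ k ∈ (S : Subgroup Hn), k * w = w * k := fun k hk => (Commute.pow_right (hscomm k hk) _)
  have hwP : ∀ r ∈ R, Commute (w : K) r := hHc w hwT.2
  have htop : (S : Subgroup Hn) ⊔ R.subgroupOf Hn = ⊤ := by
    refine eq_top_of_card_eq _ (Nat.dvd_antisymm (card_subgroup_dvd_card _) ?_)
    rw [hN]
    refine Nat.Coprime.mul_dvd_of_dvd_of_dvd (Nat.Coprime.pow_right _ (by norm_num)) ?_ ?_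
    · refine Dvd.dvd.trans (dvd_of_eq ?_) (card_dvd_of_le le_sup_right)
      rw [Nat.card_congr (subgroupOfEquivOfLe hRN).toEquiv, hR]
    · exact hSc ▸ card_dvd_of_le le_sup_left
  have hcent : (S : Subgroup Hn) ⊔ R.subgroupOf Hn ≤
      (centralizer ({(w : K)} : Set K)).subgroupOf Hn := by
    refine sup_le (fun k hk => ?_) fun k hk => ?_
    · exact mem_subgroupOf.2 (mem_centralizer_singleton_iff.2 (congrArg Subtype.val (hwS k hk)))
    · exact mem_subgroupOf.2 (mem_centralizer_singleton_iff.2 (hwP _ (mem_subgroupOf.1 hk)).symm.eq)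
  refine ⟨w, by rw [orderOf_coe, hwo], w.2, fun n hn => ?_, hwP, (S : Subgroup Hn).map Hn.subtype,
    by rw [card_map_of_injective Hn.subtype_injective, hSc], map_subtype_le _, ⟨w, hwT.1, rfl⟩⟩
  exact mem_subgroupOf.1 (hcent (htop ▸ mem_top (⟨n, hn⟩ : Hn)))

theorem odd_normal_eq_bot {i : ℕ} (hcard : Nat.card K = 495 * 2 ^ i)
    (hn : Nat.card (Sylow 11 K) = 45) (h311 : ¬ HasEdge K 3 11) (h511 : ¬ HasEdge K 5 11)
    (O : Subgroup K) [O.Normal] (hodd : Odd (Nat.card O)) : O = ⊥ := by
  have h11K : 11 ∣ Nat.card K := hcard ▸ Dvd.dvd.mul_right (by norm_num) _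
  have hcop : ∀ d, Odd d → d ∣ Nat.card K → d ∣ 495 := fun d hd h => by
    rw [hcard] at h
    exact (Nat.Coprime.pow_right _ (Nat.coprime_two_right.2 hd)).dvd_of_dvd_mul_right h
  have hO : Nat.card O ∣ 495 := hcop _ hodd O.card_subgroup_dvd_card
  have hno : ∀ d, Odd d → ¬ d ∣ 495 → ¬ d ∣ Nat.card K := fun d hd h h' => h (hcop d hd h')
  have h27 := hno 27 (by decide) (by norm_num)
  have h25 := hno 25 (by decide) (by norm_num)
  have h121 := hno 121 (by decide) (by norm_num)
  by_contra hne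
  by_cases h11 : 11 ∣ Nat.card O
  · have hidx : ¬ 11 ∣ O.index := fun hd => h121 (by
      rw [← O.index_mul_card]
      exact Nat.mul_dvd_mul hd h11)
    have hnO := card_sylow_eleven_of_forall_mem O h11K h121 fun g hg =>
      mem_of_orderOf_eleven O hidx hg
    rw [hn] at hnO
    obtain ⟨P⟩ : Nonempty (Sylow 11 O) := inferInstance
    have hP := card_sylow_eleven_pg h11 (fun h => h121 (h.trans O.card_subgroup_dvd_card)) P
    have hcardO := card_eq_mul_normalizer P
    rw [hnO] at hcardO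
    have hN : Nat.card (normalizer ((P : Subgroup O) : Set O)) = 11 := by
      refine Nat.dvd_antisymm ?_ ?_
      · refine (Nat.mul_dvd_mul_iff_left (show 0 < 45 by norm_num)).1 ?_
        rw [← hcardO]
        exact hO
      · exact (dvd_of_eq hP.symm).trans (card_dvd_of_le le_normalizer)
    exact h311 (hasEdge_coe (hasEdge_three_eleven_of_coprime P hP (by rw [hN]; decide)
      (by rw [hcardO, hN]; norm_num) h11 (fun h => h27 (h.trans O.card_subgroup_dvd_card))))
  · have h45 : Nat.card O ∣ 45 :=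
      ((Nat.Prime.coprime_iff_not_dvd (by norm_num)).2 h11).symm.dvd_of_dvd_mul_right
        (show Nat.card O ∣ 45 * 11 from hO)
    have h1 : Nat.card O ≠ 1 := fun h => hne (O.eq_bot_of_card_eq h)
    obtain ⟨q, hq, hqd⟩ := Nat.exists_prime_and_dvd h1
    have hq45 := hqd.trans h45
    rw [show 45 = 3 ^ 2 * 5 by norm_num] at hq45
    rcases hq.dvd_mul.1 hq45 with h | h
    · obtain rfl : q = 3 := (Nat.prime_dvd_prime_iff_eq hq (by norm_num)).1 (hq.dvd_of_dvd_pow h)
      exact h311 (hasEdge_three_eleven O h11 h11K hqd h27)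
    · obtain rfl : q = 5 := (Nat.prime_dvd_prime_iff_eq hq (by norm_num)).1 h
      exact h511 (hasEdge_five_eleven O h11 h11K hqd h25)

/-- There is no group of order `495 * 2 ^ i`, `i ≤ 3`, with 45 Sylow 11-subgroups and these non-edges. -/
theorem no_group : ∀ (i : ℕ), i ≤ 3 → ∀ (K : Type u) [Group K] [Finite K],
    Nat.card K = 495 * 2 ^ i → Nat.card (Sylow 11 K) = 45 → ¬ HasEdge K 3 11 → ¬ HasEdge K 5 11 →
    ¬ (HasEdge K 2 3 ∧ HasEdge K 2 5) → False := by
  intro i
  induction i using Nat.strong_induction_on with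
  | _ i IH =>
  intro hi K _ _ hcard hn h311 h511 h235
  have hpos : 0 < 2 ^ i := pow_pos (by norm_num) i
  have h11K : 11 ∣ Nat.card K := hcard ▸ Dvd.dvd.mul_right (by norm_num) _
  have h3K : 3 ∣ Nat.card K := hcard ▸ Dvd.dvd.mul_right (by norm_num) _
  have h5K : 5 ∣ Nat.card K := hcard ▸ Dvd.dvd.mul_right (by norm_num) _
  have h9K : 9 ∣ Nat.card K := hcard ▸ Dvd.dvd.mul_right (by norm_num) _
  have hdiv : ∀ d, Odd d → ¬ d ∣ 495 → ¬ d ∣ Nat.card K := fun d hd h h' => h
    ((Nat.Coprime.pow_right _ (Nat.coprime_two_right.2 hd)).dvd_of_dvd_mul_right (hcard ▸ h'))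
  have h27 := hdiv 27 (by decide) (by norm_num)
  have h121 := hdiv 121 (by decide) (by norm_num)
  obtain ⟨P⟩ : Nonempty (Sylow 11 K) := inferInstance
  have hP := card_sylow_eleven_pg h11K h121 P
  set Hn := normalizer ((P : Subgroup K) : Set K) with hHn
  have hN : Nat.card Hn = 11 * 2 ^ i := by
    have h := card_eq_mul_normalizer P
    rw [hn, hcard] at h
    change 495 * 2 ^ i = 45 * Nat.card Hn at h
    omega
  have hno : ¬ ∃ L : Subgroup K, L.index = 2 := by
    rintro ⟨L, hL⟩
    have : L.Normal := normal_of_index_eq_two hL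
    have h2 := L.index_mul_card
    rw [hL, hcard] at h2
    rcases Nat.eq_zero_or_pos i with rfl | hi0
    · omega
    · obtain ⟨j, rfl⟩ : ∃ j, i = j + 1 := ⟨i - 1, by omega⟩
      rw [pow_succ] at h2
      refine IH j (by omega) (by omega) L (by omega) ?_ (fun h => h311 (hasEdge_coe h))
        (fun h => h511 (hasEdge_coe h)) (fun h => h235 ⟨hasEdge_coe h.1, hasEdge_coe h.2⟩)
      rw [card_sylow_eleven_of_forall_mem L h11K h121 fun g hg =>
        mem_of_orderOf_eleven L (by rw [hL]; norm_num) hg, hn]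
  obtain ⟨H, hHnormal, hd, hHc, htop⟩ := exists_kernel _ hP
  obtain ⟨t, ht⟩ := H.card_subgroup_dvd_card
  have htd : t ∣ 10 := by
    rw [ht, mul_comm 10] at hd
    exact Nat.dvd_of_mul_dvd_mul_left Nat.card_pos hd
  have htn : t ∣ 11 * 2 ^ i := by
    rw [← hN]
    exact ht ▸ dvd_mul_left t _
  have ht1 : t ≠ 1 := by
    rintro rfl
    exact h311 (hasEdge_three_eleven_of_burnside P
      (htop (eq_top_of_card_eq _ (by rw [ht, mul_one]))) h3K h11K h27)
  have ht2 : t = 2 := by
    have ht10 := Nat.le_of_dvd (by norm_num) htd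
    have h5 : ¬ 5 ∣ t := fun h => by
      rcases (by norm_num : Nat.Prime 5).dvd_mul.1 (h.trans htn) with e | e
      · norm_num at e
      · exact absurd ((by norm_num : Nat.Prime 5).dvd_of_dvd_pow e) (by norm_num)
    interval_cases t <;> omega
  subst ht2
  have ht' : Nat.card H * 2 = 11 * 2 ^ i := by rw [← hN]; exact ht.symm
  have hi2 : 2 ≤ i := by
    by_contra hlt
    interval_cases i
    · omega
    · obtain ⟨T⟩ : Nonempty (Sylow 2 K) := inferInstance
      have hT : Nat.card (T : Subgroup K) = 2 := by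
        simpa using CfsgLib.SmallGroups.card_sylow_eq (p := 2) (a := 1) (m := 495)
          (by rw [hcard, mul_comm]) (by norm_num) T
      exact hno (CfsgLib.Involutions.exists_index_two_of_cyclic_sylow
        (by rw [hcard]; decide) T (isCyclic_of_prime_card hT))
  have hH2 : 2 ∣ Nat.card H := by
    obtain ⟨j, rfl⟩ : ∃ j, i = j + 2 := ⟨i - 2, by omega⟩
    rw [pow_add] at ht'
    omega
  obtain ⟨z, hz2, hzN, hzC, hzP, S, hS, hSN, hzS⟩ :=
    exists_central_involution_graph (le_normalizer (H := (P : Subgroup K))) hN hP H hH2 hHc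
  change Hn ≤ centralizer ({z} : Set K) at hzC
  change z ∈ Hn at hzN
  change S ≤ Hn at hSN
  have hzsq : z ^ 2 = 1 := hz2 ▸ pow_orderOf_eq_one z
  have hmod := fixCount_modEq_one P hP (fun h => h121 (h.trans Hn.card_subgroup_dvd_card)) hzN hzP
  change fixCount (K ⧸ Hn) z % 11 = 1 at hmod
  have hidx : Nat.card (K ⧸ Hn) = 45 := by
    rw [← hn]
    exact (Sylow.card_eq_index_normalizer P).symm
  obtain ⟨h4, hle⟩ := four_dvd_card_sub_fixCount hno (X := K ⧸ Hn) hzsq
  have hmul := fix_mul_card Hn z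
  set f := fixCount (K ⧸ Hn) z with hf
  rw [hidx] at h4 hle
  have hcases : f = 1 ∨ f = 45 := by omega
  rcases hcases with hf1 | hf45
  · -- `z` is isolated, hence central
    rw [hf1, one_mul] at hmul
    have hc0 : 0 < conjCount Hn z := Nat.card_pos_iff.2
      ⟨⟨⟨z, hzN, IsConj.refl z⟩⟩, inferInstance⟩
    have hge : Nat.card Hn ≤ Nat.card (centralizer ({z} : Set K)) := card_le_of_le hzC
    have hc1 : conjCount Hn z = 1 := by
      by_contra hne
      have : 2 * Nat.card (centralizer ({z} : Set K)) ≤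
          Nat.card (centralizer ({z} : Set K)) * conjCount Hn z := by
        rw [mul_comm 2]; exact Nat.mul_le_mul_left _ (by omega)
      have := Nat.card_pos (α := Hn)
      omega
    rw [hc1, mul_one] at hmul
    obtain ⟨hsub, -⟩ := Nat.card_eq_one_iff_unique.1 hc1
    let P2 : Sylow 2 K := Sylow.ofCard S (by
      rw [hS, hcard, Nat.factorization_mul (by norm_num) hpos.ne', Nat.Prime.factorization_pow
        Nat.prime_two]
      simp [Nat.factorization_eq_zero_of_not_dvd (show ¬ 2 ∣ 495 by norm_num)])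
    have hiso : ∀ g : K, g * z * g⁻¹ ∈ P2 → g * z * g⁻¹ = z := fun g hg => by
      have := @Subsingleton.elim _ hsub
        (⟨g * z * g⁻¹, hSN hg, isConj_iff.2 ⟨g, rfl⟩⟩ : {h : K // h ∈ Hn ∧ IsConj z h})
        ⟨z, hzN, IsConj.refl z⟩
      exact congrArg Subtype.val this
    have hO : Cfsg.oddCore K = ⊥ := CfsgLib.Cores.oddCore_eq_bot_iff.2 fun O hOn hodd =>
      @odd_normal_eq_bot K _ _ i hcard hn h311 h511 O hOn hodd
    have hcen := CfsgLib.Involutions.mem_center_of_isolated P2 hz2 hiso hO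
    have htopc : centralizer ({z} : Set K) = ⊤ :=
      top_unique fun g _ => mem_centralizer_singleton_iff.2 (mem_center_iff.1 hcen g)
    rw [htopc, card_top, hN, hcard] at hmul
    omega
  · -- `z` fixes every point
    have hall : ∀ g : K, g⁻¹ * z * g ∈ Hn := by
      have hfix : ∀ q : K ⧸ Hn, z • q = q := by
        intro q
        have hinj := (Subtype.val_injective (p := fun q : K ⧸ Hn => z • q = q))
        have := (Nat.bijective_iff_injective_and_card _).2 ⟨hinj, hf45.trans hidx.symm⟩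
        obtain ⟨a, ha⟩ := this.2 q
        exact ha ▸ a.2
      exact fun g => (mk_fixed_iff Hn z g).1 (hfix g)
    have hzD : z ∈ Hn.normalCore := fun g => by simpa using hall g⁻¹
    have h11D : ¬ 11 ∣ Nat.card Hn.normalCore := by
      intro h11
      have hidx' : ¬ 11 ∣ Hn.normalCore.index := fun hd => h121 (by
        rw [← Hn.normalCore.index_mul_card]
        exact Nat.mul_dvd_mul hd h11)
      have h1 : Nat.card (Sylow 11 Hn) = 45 := by
        rw [card_sylow_eleven_of_forall_mem Hn h11K h121 fun g hg =>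
          normalCore_le Hn (mem_of_orderOf_eleven _ hidx' hg), hn]
      obtain ⟨Q⟩ : Nonempty (Sylow 11 Hn) := inferInstance
      have h2 := card_eq_mul_normalizer Q
      rw [h1, hN] at h2
      have h9 : 9 ∣ 11 * 2 ^ i := by rw [h2]; exact Dvd.dvd.mul_right (by norm_num) _
      interval_cases i <;> norm_num at h9
    have hDd : Nat.card Hn.normalCore ∣ 2 ^ i := by
      refine ((Nat.Prime.coprime_iff_not_dvd (by norm_num)).2 h11D).symm.dvd_of_dvd_mul_left ?_
      rw [← hN]
      exact card_dvd_of_le (normalCore_le Hn)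
    obtain ⟨k, hk, hk'⟩ := (Nat.dvd_prime_pow Nat.prime_two).1 hDd
    rcases Nat.eq_zero_or_pos k with rfl | hk0
    · have hb : Hn.normalCore = ⊥ := eq_bot_of_card_eq _ (by rw [hk', pow_zero])
      rw [hb, mem_bot] at hzD
      rw [hzD, orderOf_one] at hz2
      omega
    · exact h235 (hasEdge_two_of_normal Hn.normalCore hk0 (by omega) hk' h9K h5K)

/-- A group of order 7920 with disconnected prime graph is simple. -/
theorem isSimpleGroup_of_disconnected {G : Type u} [Group G] [Finite G] (hord : Nat.card G = 7920)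
    (hdisc : ∃ A : Set ℕ, (∃ a ∈ A, a.Prime ∧ a ∣ Nat.card G) ∧ (∃ b ∉ A, b.Prime ∧ b ∣ Nat.card G) ∧
      ∀ a ∈ A, ∀ b ∉ A, a.Prime → b.Prime → a ∣ Nat.card G → b ∣ Nat.card G →
        ¬ ∃ g : G, orderOf g = a * b) : IsSimpleGroup G := by
  obtain ⟨A, ⟨a, haA, hap, had⟩, ⟨b, hbA, hbp, hbd⟩, hA⟩ := hdisc
  have hprimes : ∀ r : ℕ, r.Prime → r ∣ Nat.card G → r = 2 ∨ r = 3 ∨ r = 5 ∨ r = 11 := by
    intro r hr hd
    rw [hord, show 7920 = 2 ^ 4 * (3 ^ 2 * (5 * 11)) by norm_num] at hd
    rcases hr.dvd_mul.1 hd with h | h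
    · exact Or.inl ((Nat.prime_dvd_prime_iff_eq hr Nat.prime_two).1 (hr.dvd_of_dvd_pow h))
    rcases hr.dvd_mul.1 h with h | h
    · exact Or.inr (Or.inl ((Nat.prime_dvd_prime_iff_eq hr (by norm_num)).1 (hr.dvd_of_dvd_pow h)))
    rcases hr.dvd_mul.1 h with h | h
    · exact Or.inr (Or.inr (Or.inl ((Nat.prime_dvd_prime_iff_eq hr (by norm_num)).1 h)))
    · exact Or.inr (Or.inr (Or.inr ((Nat.prime_dvd_prime_iff_eq hr (by norm_num)).1 h)))
  have hiff : ∀ p q : ℕ, p.Prime → q.Prime → p ∣ Nat.card G → q ∣ Nat.card G → HasEdge G p q →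
      (p ∈ A ↔ q ∈ A) := by
    intro p q hp hq hpd hqd he
    constructor
    · exact fun h => by_contra fun h' => hA p h q h' hp hq hpd hqd he
    · exact fun h => by_contra fun h' => hA q h p h' hq hp hqd hpd (hasEdge_comm he)
  have i23 := hiff 2 3 (by norm_num) (by norm_num) (by rw [hord]; norm_num) (by rw [hord]; norm_num)
  have i25 := hiff 2 5 (by norm_num) (by norm_num) (by rw [hord]; norm_num) (by rw [hord]; norm_num)
  have i35 := hiff 3 5 (by norm_num) (by norm_num) (by rw [hord]; norm_num) (by rw [hord]; norm_num)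
  have i211 := hiff 2 11 (by norm_num) (by norm_num) (by rw [hord]; norm_num) (by rw [hord]; norm_num)
  have i311 := hiff 3 11 (by norm_num) (by norm_num) (by rw [hord]; norm_num) (by rw [hord]; norm_num)
  have i511 := hiff 5 11 (by norm_num) (by norm_num) (by rw [hord]; norm_num) (by rw [hord]; norm_num)
  have hcon : (2 ∈ A ↔ 3 ∈ A) → (2 ∈ A ↔ 5 ∈ A) → (2 ∈ A ↔ 11 ∈ A) → False := by
    intro h3 h5 h11
    have hall : ∀ r, r.Prime → r ∣ Nat.card G → (r ∈ A ↔ 2 ∈ A) := by
      intro r hr hd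
      rcases hprimes r hr hd with rfl | rfl | rfl | rfl
      exacts [Iff.rfl, h3.symm, h5.symm, h11.symm]
    exact hbA ((hall b hbp hbd).2 ((hall a hap had).1 haA))
  clear hA hprimes hiff
  have h11G : 11 ∣ Nat.card G := by rw [hord]; norm_num
  have h121 : ¬ 121 ∣ Nat.card G := by rw [hord]; norm_num
  have h27 : ¬ 27 ∣ Nat.card G := by rw [hord]; norm_num
  have h25 : ¬ 25 ∣ Nat.card G := by rw [hord]; norm_num
  set n := Nat.card (Sylow 11 G) with hn
  have hcardP := fun P : Sylow 11 G => card_sylow_eleven_pg h11G h121 P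
  have hNmul : ∀ P : Sylow 11 G,
      7920 = n * Nat.card (normalizer ((P : Subgroup G) : Set G)) := fun P =>
    hord.symm.trans (card_eq_mul_normalizer P)
  have hncases : n = 1 ∨ n = 12 ∨ n = 45 ∨ n = 144 := by
    obtain ⟨P⟩ : Nonempty (Sylow 11 G) := inferInstance
    have h2 : n ∣ 720 := by
      have h := P.card_dvd_index
      rwa [show (P : Subgroup G).index = 720 by
        have := (P : Subgroup G).index_mul_card
        rw [hcardP, hord] at this
        omega] at h
    have h1 : n % 11 = 1 := card_sylow_modEq_one 11 G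
    have hk : ∀ m ∈ Nat.divisors 720, m % 11 = 1 → m = 1 ∨ m = 12 ∨ m = 45 ∨ m = 144 := by decide +kernel
    exact hk n (Nat.mem_divisors.2 ⟨h2, by norm_num⟩) h1
  -- edges at the prime eleven come from normalisers
  have hback : ∀ p : ℕ, p.Prime → p ≠ 11 → HasEdge G p 11 →
      ∀ P : Sylow 11 G, p ∣ Nat.card (normalizer ((P : Subgroup G) : Set G)) := by
    intro p hp hp11 he P
    obtain ⟨x, hx⟩ := he
    have hy : orderOf (x ^ 11) = p := by
      rw [orderOf_pow' _ (by norm_num), hx,
        Nat.gcd_eq_right (dvd_mul_left 11 p), Nat.mul_div_cancel _ (by norm_num)]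
    have hr : orderOf (x ^ p) = 11 := by
      rw [orderOf_pow' _ hp.ne_zero, hx, Nat.gcd_eq_right (dvd_mul_right p 11),
        Nat.mul_div_cancel_left _ hp.pos]
    obtain ⟨Q, hQ⟩ := (IsPGroup.of_card (p := 11) (n := 1)
      (by rw [pow_one, Nat.card_zpowers, hr]) : IsPGroup 11 (zpowers (x ^ p))).exists_le_sylow
    have hQe : zpowers (x ^ p) = (Q : Subgroup G) :=
      eq_of_le_of_card_ge hQ (by rw [hcardP, Nat.card_zpowers, hr])
    have hmem : x ^ 11 ∈ normalizer ((Q : Subgroup G) : Set G) := by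
      rw [← hQe]
      refine centralizer_le_normalizer _ (mem_centralizer_iff.2 fun y hy' => ?_)
      obtain ⟨k, rfl⟩ := mem_zpowers_iff.1 hy'
      exact (((Commute.refl x).pow_pow p 11).zpow_left k).eq
    have h1 := Subgroup.orderOf_dvd_natCard _ hmem
    rw [hy] at h1
    have h2 := hNmul Q
    rw [hNmul P] at h2
    have hn0 : n ≠ 0 := by rcases hncases with h | h | h | h <;> omega
    rwa [Nat.eq_of_mul_eq_mul_left (Nat.pos_of_ne_zero hn0) h2]
  -- the numbers 1 and 12 are impossible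
  have hn' : n = 45 ∨ n = 144 := by
    by_contra hne
    have hn2 : n = 1 ∨ n = 12 := by omega
    obtain ⟨P⟩ : Nonempty (Sylow 11 G) := inferInstance
    set Hn := normalizer ((P : Subgroup G) : Set G) with hHn'
    obtain ⟨H, hHn, hd, hHc, -⟩ := exists_kernel _ (hcardP P)
    have h660 : 660 ∣ Nat.card Hn := by
      have h := hNmul P
      change 7920 = n * Nat.card Hn at h
      rcases hn2 with e | e <;> rw [e] at h <;> omega
    have h66 : 66 ∣ Nat.card H :=
      Nat.dvd_of_mul_dvd_mul_left (show 0 < 10 by norm_num) (h660.trans hd)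
    have hedge : ∀ p : ℕ, p.Prime → p ≠ 11 → p ∣ Nat.card H → HasEdge G p 11 := by
      intro p hp hp11 hpd
      have := Fact.mk hp
      obtain ⟨r, hr⟩ := exists_prime_orderOf_dvd_card' (G := H) p hpd
      obtain ⟨w, hw⟩ := exists_prime_orderOf_dvd_card' (G := (P : Subgroup G)) 11 (dvd_of_eq (hcardP P).symm)
      exact CfsgLib.OrderDegrees.exists_orderOf_eq_mul_of_commute hp (by norm_num) hp11
        (hHc r r.2 w w.2) (dvd_of_eq (by rw [orderOf_coe, orderOf_coe, hr]))
        (dvd_of_eq (by rw [orderOf_coe, hw]))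
    have e2 := i211 (hedge 2 (by norm_num) (by norm_num) (dvd_trans (by norm_num) h66))
    have e3 := i311 (hedge 3 (by norm_num) (by norm_num) (dvd_trans (by norm_num) h66))
    by_cases h5 : 5 ∣ Nat.card H
    · have e5 := i511 (hedge 5 (by norm_num) (by norm_num) h5)
      exact hcon (e2.trans e3.symm) (e2.trans e5.symm) e2
    · have e53 : HasEdge Hn 5 3 := hasEdge_of_normal H h5 (dvd_trans (by norm_num) h660)
        (dvd_trans (by norm_num) h66) fun k hk hkd _ => by
          have hk2 : k ≤ 2 := by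
            by_contra hlt
            exact h27 ((pow_dvd_pow 3 (by omega : 3 ≤ k)).trans
              ((hkd.trans H.card_subgroup_dvd_card).trans Hn.card_subgroup_dvd_card))
          interval_cases k <;> decide
      have e5 := i35 (hasEdge_coe (hasEdge_comm e53))
      exact hcon (e2.trans e3.symm) ((e2.trans e3.symm).trans e5) e2
  clear hncases
  -- non-edges
  have h311 : ¬ HasEdge G 3 11 := fun he => by
    obtain ⟨P⟩ : Nonempty (Sylow 11 G) := inferInstance
    have h := hback 3 (by norm_num) (by norm_num) he P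
    have h' := hNmul P
    rcases hn' with e | e <;> rw [e] at h' <;> omega
  have hnot : n = 45 → ¬ HasEdge G 5 11 := fun e he => by
    obtain ⟨P⟩ : Nonempty (Sylow 11 G) := inferInstance
    have h := hback 5 (by norm_num) (by norm_num) he P
    have h' := hNmul P
    rw [e] at h'; omega
  have hnot' : n = 144 → ¬ HasEdge G 2 11 := fun e he => by
    obtain ⟨P⟩ : Nonempty (Sylow 11 G) := inferInstance
    have h := hback 2 (by norm_num) (by norm_num) he P
    have h' := hNmul P
    rw [e] at h'; omega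
  -- the prime eleven divides every nontrivial normal subgroup
  have hmain : ∀ N : Subgroup G, N.Normal → N ≠ ⊥ → 11 ∣ Nat.card N := by
    intro N hNn hNb
    by_contra h11
    have hN7 : Nat.card N ∣ 720 := by
      refine ((Nat.Prime.coprime_iff_not_dvd (by norm_num)).2 h11).symm.dvd_of_dvd_mul_right ?_
      rw [show 720 * 11 = Nat.card G by rw [hord]]
      exact N.card_subgroup_dvd_card
    have h3 : ¬ 3 ∣ Nat.card N := fun h => h311 (hasEdge_three_eleven N h11 h11G h h27)
    have h80 : Nat.card N ∣ 80 :=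
      (((Nat.Prime.coprime_iff_not_dvd (by norm_num)).2 h3).symm.pow_right 2).dvd_of_dvd_mul_right
        (show Nat.card N ∣ 80 * 3 ^ 2 from hN7)
    by_cases h5 : 5 ∣ Nat.card N
    · have hn144 : n = 144 := hn'.resolve_left fun e =>
        hnot e (hasEdge_five_eleven N h11 h11G h5 h25)
      have h2 : ¬ 2 ∣ Nat.card N := fun h2 => hnot' hn144 (hasEdge_comm
        (hasEdge_of_normal N h11 h11G h2 fun k hk hkd _ => by
          have hk4 : k ≤ 4 := by
            by_contra hlt
            have h32 : 32 ∣ Nat.card G := (pow_dvd_pow 2 (by omega : 5 ≤ k)).trans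
              (hkd.trans N.card_subgroup_dvd_card)
            rw [hord] at h32; norm_num at h32
          interval_cases k <;> decide))
      have hN5 : Nat.card N = 5 := by
        refine Nat.dvd_antisymm ?_ h5
        exact (((Nat.Prime.coprime_iff_not_dvd (by norm_num)).2 h2).symm.pow_right 4).dvd_of_dvd_mul_left
          (show Nat.card N ∣ 2 ^ 4 * 5 from h80)
      have e5 := i511 (hasEdge_five_eleven N h11 h11G h5 h25)
      have e35 := i35 (hasEdge_of_normal N (by rw [hN5]; norm_num) (by rw [hord]; norm_num) h5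
        fun k hk hkd _ => by
          have hk1 : k ≤ 1 := by
            by_contra hlt
            have h' : 25 ∣ Nat.card N := (pow_dvd_pow 5 (by omega : 2 ≤ k)).trans hkd
            rw [hN5] at h'; norm_num at h'
          interval_cases k; decide)
      obtain ⟨z, hz⟩ := exists_prime_orderOf_dvd_card' (G := N) 5 h5
      obtain ⟨c, hc, he⟩ := centralizer_card_mul_le (z : G) N z.2
      rw [hN5] at hc; rw [hord] at he
      have h2c : 2 ∣ Nat.card (centralizer ({(z : G)} : Set G)) := by
        interval_cases c <;> omega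
      have e25 := i25 (hasEdge_of_dvd_centralizer (q := 5) (by norm_num) h2c
        (dvd_of_eq (by rw [orderOf_coe, hz])) fun h hh => mem_centralizer_singleton_iff.1 hh)
      exact hcon (e25.trans e35.symm) e25 (e25.trans e5)
    · have h16 : Nat.card N ∣ 2 ^ 4 :=
        ((Nat.Prime.coprime_iff_not_dvd (by norm_num)).2 h5).symm.dvd_of_dvd_mul_right
          (show Nat.card N ∣ 2 ^ 4 * 5 from h80)
      obtain ⟨k, hk, hkc⟩ := (Nat.dvd_prime_pow Nat.prime_two).1 h16
      have hk0 : 0 < k := Nat.pos_of_ne_zero fun h =>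
        hNb (eq_bot_of_card_eq _ (by rw [hkc, h, pow_zero]))
      have e211 : HasEdge G 2 11 := hasEdge_comm (hasEdge_of_normal N h11 h11G
        (hkc ▸ dvd_pow_self 2 hk0.ne') fun j hj hjd _ => by
          have : j ≤ 4 := (Nat.pow_dvd_pow_iff_le_right (by norm_num)).1 (hjd.trans h16)
          interval_cases j <;> decide)
      have hn45 : n = 45 := hn'.resolve_right fun e => hnot' e e211
      rcases Nat.lt_or_ge k 4 with hk3 | hk4
      · obtain ⟨e23, e25⟩ := hasEdge_two_of_normal N hk0 (by omega) hkc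
          (by rw [hord]; norm_num) (by rw [hord]; norm_num)
        exact hcon (i23 e23) (i25 e25) (i211 e211)
      · obtain rfl : k = 4 := by omega
        obtain ⟨P⟩ : Nonempty (Sylow 11 G) := inferInstance
        have hle : (N : Subgroup G) ≤ normalizer ((P : Subgroup G) : Set G) := by
          set Hn := normalizer ((P : Subgroup G) : Set G) with hHn
          have h176 : Nat.card Hn = 176 := by
            have h := hNmul P
            change 7920 = n * Nat.card Hn at h
            rw [hn45] at h; omega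
          obtain ⟨S⟩ : Nonempty (Sylow 2 Hn) := inferInstance
          have hS : Nat.card (S : Subgroup Hn) = 2 ^ 4 :=
            CfsgLib.SmallGroups.card_sylow_eq (p := 2) (a := 4) (m := 11) (by rw [h176]; norm_num)
              (by norm_num) S
          let S' : Sylow 2 G := Sylow.ofCard ((S : Subgroup Hn).map Hn.subtype) (by
            rw [card_map_of_injective Hn.subtype_injective, hS, hord,
              show 7920 = 2 ^ 4 * 495 by norm_num, Nat.factorization_mul (by norm_num) (by norm_num),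
              Nat.Prime.factorization_pow Nat.prime_two]
            simp [Nat.factorization_eq_zero_of_not_dvd (show ¬ 2 ∣ 495 by norm_num)])
          obtain ⟨S₀, hS₀⟩ := (IsPGroup.of_card hkc : IsPGroup 2 N).exists_le_sylow
          obtain ⟨g, hg⟩ := exists_smul_eq G S₀ S'
          intro x hx
          have hx' : g⁻¹ * x * g ∈ N := by simpa using hNn.conj_mem x hx g⁻¹
          have hxS : x ∈ (S' : Subgroup G) := by
            rw [← hg]
            exact ⟨g⁻¹ * x * g, hS₀ hx', by simp [mul_assoc]⟩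
          exact map_subtype_le _ hxS
        refine h311 (hasEdge_three_eleven_of_burnside P (fun y hy => ?_)
          (by rw [hord]; norm_num) h11G h27)
        have hR : ∀ m ∈ N, ∀ r ∈ (P : Subgroup G), Commute m r := by
          intro m hm r hr
          have h1 : m * r * m⁻¹ * r⁻¹ ∈ N := by
            simpa [mul_assoc] using N.mul_mem hm (hNn.conj_mem _ (N.inv_mem hm) r)
          have h2 : m * r * m⁻¹ * r⁻¹ ∈ (P : Subgroup G) :=
            mul_mem ((mem_normalizer_iff.1 (hle hm) r).1 hr) (inv_mem hr)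
          have hd : orderOf (m * r * m⁻¹ * r⁻¹) ∣ Nat.gcd (2 ^ 4) 11 :=
            Nat.dvd_gcd (hkc ▸ N.orderOf_dvd_natCard h1) (hcardP P ▸ Subgroup.orderOf_dvd_natCard _ h2)
          have := orderOf_eq_one_iff.1 (Nat.eq_one_of_dvd_one hd)
          exact mul_inv_eq_iff_eq_mul.1 (mul_inv_eq_one.1 this)
        set Hn := normalizer ((P : Subgroup G) : Set G) with hHn
        have h176 : Nat.card Hn = 11 * 2 ^ 4 := by
          have h := hNmul P
          change 7920 = n * Nat.card Hn at h
          rw [hn45] at h; omega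
        have hC : Nat.card Hn ∣ Nat.card ((centralizer ((P : Subgroup G) : Set G)).subgroupOf Hn) := by
          rw [h176]
          refine Nat.Coprime.mul_dvd_of_dvd_of_dvd (Nat.Coprime.pow_right _ (by norm_num)) ?_ ?_
          · refine Dvd.dvd.trans (dvd_of_eq ?_) (card_dvd_of_le (H := (P : Subgroup G).subgroupOf Hn) ?_)
            · rw [Nat.card_congr (subgroupOfEquivOfLe (le_normalizer (H := (P : Subgroup G)))).toEquiv,
                hcardP]
            · have : IsCyclic (P : Subgroup G) := isCyclic_of_prime_card (hcardP P)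
              exact fun u hu => mem_subgroupOf.2 (mem_centralizer_iff.2 fun r hr =>
                congrArg Subtype.val (mul_comm' (⟨r, hr⟩ : (P : Subgroup G)) ⟨u, mem_subgroupOf.1 hu⟩))
          · refine Dvd.dvd.trans (dvd_of_eq ?_) (card_dvd_of_le (H := N.subgroupOf Hn) ?_)
            · rw [Nat.card_congr (subgroupOfEquivOfLe hle).toEquiv, hkc]
            · exact fun u hu => mem_subgroupOf.2 (mem_centralizer_iff.2 fun r hr =>
                (hR _ (mem_subgroupOf.1 hu) r hr).symm.eq)
        have hT := eq_top_of_card_eq _ (Nat.dvd_antisymm (card_subgroup_dvd_card _) hC)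
        exact (mem_subgroupOf (h := (⟨y, hy⟩ : Hn))).1 (hT ▸ mem_top _)
  have hmem : ∀ N : Subgroup G, N.Normal → N ≠ ⊥ → ∀ g : G, orderOf g = 11 → g ∈ N := by
    intro N hNn hNb g hg
    refine mem_of_orderOf_eleven N (fun hd => h121 ?_) hg
    rw [← N.index_mul_card]
    exact Nat.mul_dvd_mul hd (hmain N hNn hNb)
  have : Nontrivial G := Finite.one_lt_card_iff_nontrivial.1 (by rw [hord]; norm_num)
  refine ⟨fun N hNn => or_iff_not_imp_left.2 fun hNb => ?_⟩
  have h11N := hmain N hNn hNb
  have hnN := card_sylow_eleven_of_forall_mem N h11G h121 (hmem N hNn hNb)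
  obtain ⟨P⟩ : Nonempty (Sylow 11 N) := inferInstance
  have hP := card_sylow_eleven_pg h11N (fun h => h121 (h.trans N.card_subgroup_dvd_card)) P
  have hcN := card_eq_mul_normalizer P
  rw [hnN, ← hn] at hcN
  obtain ⟨l, hl⟩ : 11 ∣ Nat.card (normalizer ((P : Subgroup N) : Set N)) :=
    (dvd_of_eq hP.symm).trans (card_dvd_of_le le_normalizer)
  have hdvd := N.card_subgroup_dvd_card
  rw [hcN, hl, hord] at hdvd
  by_contra hNt
  have hlt : Nat.card N ≠ 7920 := fun h => hNt (eq_top_of_card_eq _ (h.trans hord.symm))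
  rcases hn' with e | e
  · rw [e] at hcN hdvd
    obtain ⟨i, hi, rfl⟩ := (Nat.dvd_prime_pow Nat.prime_two (m := 4) (i := l)).1 (by
      rw [show (7920 : ℕ) = 45 * (11 * 16) by norm_num] at hdvd
      exact Nat.dvd_of_mul_dvd_mul_left (by norm_num : 0 < 11)
        (Nat.dvd_of_mul_dvd_mul_left (by norm_num : 0 < 45) hdvd))
    have hcard : Nat.card N = 495 * 2 ^ i := by rw [hcN, hl]; ring
    have hi3 : i ≤ 3 := by
      by_contra hgt
      obtain rfl : i = 4 := by omega
      exact hlt (by rw [hcard]; norm_num)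
    exact no_group i hi3 N hcard (hnN.trans (hn.symm.trans e)) (fun h => h311 (hasEdge_coe h))
      (fun h => hnot e (hasEdge_coe h))
      (fun h => hcon (i23 (hasEdge_coe h.1)) (i25 (hasEdge_coe h.2)) (i211 (by
        obtain ⟨P'⟩ : Nonempty (Sylow 11 G) := inferInstance
        obtain ⟨H, hHn, hd, hHc, -⟩ := exists_kernel _ (hcardP P')
        have h' := hNmul P'
        rw [e] at h'
        have h2H : 2 ∣ Nat.card H := by
          have h176 : 176 ∣ 10 * Nat.card H := dvd_trans (dvd_of_eq (by omega)) hd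
          omega
        obtain ⟨w, hw⟩ := exists_prime_orderOf_dvd_card' (G := (P' : Subgroup G)) 11 (dvd_of_eq (hcardP P').symm)
        obtain ⟨r, hr⟩ := exists_prime_orderOf_dvd_card' (G := H) 2 h2H
        exact CfsgLib.OrderDegrees.exists_orderOf_eq_mul_of_commute (by norm_num) (by norm_num)
          (by norm_num) (hHc r r.2 w w.2) (dvd_of_eq (by rw [orderOf_coe, orderOf_coe, hr]))
          (dvd_of_eq (by rw [orderOf_coe, hw])))))
  · rw [e] at hcN hdvd
    have hl5 : l = 1 ∨ l = 5 := by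
      refine (Nat.dvd_prime (by norm_num)).1 ?_
      rw [show (7920 : ℕ) = 144 * (11 * 5) by norm_num] at hdvd
      exact Nat.dvd_of_mul_dvd_mul_left (by norm_num : 0 < 11)
        (Nat.dvd_of_mul_dvd_mul_left (by norm_num : 0 < 144) hdvd)
    rcases hl5 with rfl | rfl
    · exact h311 (hasEdge_coe (hasEdge_three_eleven_of_coprime P hP (by rw [hl]; decide)
        (by rw [hcN, hl]; norm_num) h11N (fun h => h27 (h.trans N.card_subgroup_dvd_card))))
    · exact hlt (by rw [hcN, hl])

end CfsgLib.Mathieu.Order7920
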